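/-
helper903: S5760, p = 3, T = PΩ₈⁺(q), q a power of 3 (inner version, in particular q = 3).
-/
import Mathlib
import Cfsg.Agent.H68.MeetBase
import Cfsg.Agent.H152.MeetOmega
import Cfsg.Agent.H126.SepThree

set_option autoImplicit false

namespace Cfsg.Agent.H903.MeetInD4

open Cfsg QuadraticMap Cfsg.Agent.H903.SylMeet Cfsg.Agent.H903.SylSemi Cfsg.Agent.H68.MeetB
open Cfsg.Agent.LieClassical.OrthCore Cfsg.Agent.LieClassical.OrthTrans Cfsg.Agent.LieClassical.QuadForms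
open Cfsg.Agent.AutOrth.Main Cfsg.Agent.H208.Dict Cfsg.Agent.ClassicalGeometry.OrthAut1
open Cfsg.Agent.H152.MeetOmega

variable {F : Type*} [Field F] {ι : Type} [Fintype ι] [DecidableEq ι] {Q : QuadraticForm F (ι → F)}

/-- `SepO` gives the inner statement. -/
theorem meetIn_of [Finite F] {p : ℕ} [Fact p.Prime] (hG : Good Q) (h : SepO p F ⇑Q)
    (hinj : Function.Injective (MulAut.conj : POmega F ⇑Q →* MulAut (POmega F ⇑Q))) :
    MeetIn p (POmega F ⇑Q) := by
  intro R hR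
  have hP : IsPGroup p (R.map MulAut.conj) := hR.map _
  obtain ⟨x, hx⟩ : ∃ x : POmega F ⇑Q, ∀ y ∈ R.map MulAut.conj,
      MulAut.conj x * y * (MulAut.conj x)⁻¹ ∈ R.map MulAut.conj → y = 1 := by
    refine good_of_sep (proj_surjective ⇑Q) (rho_injective ⇑Q) (Y := SemiO F ⇑Q) (semiO_one _) ?_ ?_ ?_ ?_ ?_ hP
      ?_ (fun y hy h1 => unique hG hy h1) (X' := IsOmegaMap F ⇑Q) ?_ h
    · intro y y' h1 h2
      exact mem_gam_iff.1 (mul_mem (mem_gam_iff.2 h1) (mem_gam_iff.2 h2))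
    · intro a
      exact mem_gam_iff.1 (ClassicalGeometry.OrthSemi.scal Q a).2
    · rintro y ⟨θ, c, -, h1, -⟩
      exact ⟨θ, h1⟩
    · intro s
      refine ⟨fun u v => ?_, fun a v => ?_⟩
      · rw [rho_apply, rho_apply, rho_apply, Matrix.mulVec_add]
      · rw [rho_apply, rho_apply, Matrix.mulVec_smul]; rfl
    · intro s
      exact mem_gam_iff.1 (rho_mem_gam s)
    · rintro _ ⟨t, ht, rfl⟩
      obtain ⟨s, rfl⟩ := proj_surjective ⇑Q t
      exact ⟨_, mem_gam_iff.1 (rho_mem_gam s), Ind.conj _ _ s⟩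
    · rintro g ⟨s, hs⟩
      exact ⟨s, Equiv.ext fun v => (hs v).symm⟩
  refine ⟨x, fun y hy hxy => ?_⟩
  have h1 := hx (MulAut.conj y) (Subgroup.mem_map_of_mem _ hy) (by
    rw [← map_inv, ← map_mul, ← map_mul]
    exact Subgroup.mem_map_of_mem _ hxy)
  exact hinj (by rw [h1, map_one])

/-- **`PΩ₈⁺(q)`, `q` a power of `3`, inner version.** -/
theorem meetIn3_D4_char {F : Type} [Field F] [Fintype F] [CharP F 3]
    [hs : IsSimpleGroup (POmega F (quadFormPlus 4 F))]
    (hc : ¬ IsMulCommutative (POmega F (quadFormPlus 4 F))) : MeetIn 3 (POmega F (quadFormPlus 4 F)) := by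
  have : Fact (Nat.Prime 3) := ⟨Nat.prime_three⟩
  have hinj := conj_injective hc
  have h := Cfsg.Agent.H126.SepThree.sepO_char_plus (p := 3) (F := F) le_rfl (m := 4) (by norm_num)
  revert hinj h
  rw [← coe_plusForm]
  intro hinj h
  exact meetIn_of (good_plus (by omega)) h hinj

end Cfsg.Agent.H903.MeetInD4
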