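/-
helper903: S5760, characters of `p`-defect zero and `MeetIn p`; the Steinberg character.
-/
import Mathlib
import Cfsg.Agent.H68.MeetBase
import Cfsg.Agent.S0908
import Cfsg.Agent.S0914
import Cfsg.Agent.S0956
import Cfsg.Agent.S0906
import Cfsg.Agent.Blocks.ExistsModular

set_option autoImplicit false

namespace Cfsg.Agent.H903.MeetDZ

open Cfsg Cfsg.Agent.H903.SylMeet Cfsg.Agent.H68.MeetB

/-- **Green**: a character of `p`-defect zero gives two Sylow `p`-subgroups meeting trivially. -/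
theorem exists_inf_of_defect_zero {G : Type*} [Group G] [Finite G] (p : ℕ) [Fact p.Prime] (χ : IrrCharacter G)
    (hχ : ¬ p ∣ Nat.card G / charDegree (χ : G → ℂ)) (hdvd : charDegree (χ : G → ℂ) ∣ Nat.card G) (P : Sylow p G) :
    ∃ x : G, (P : Subgroup G) ⊓ (P : Subgroup G).map (MulAut.conj x).toMonoidHom = ⊥ := by
  obtain ⟨M, hM⟩ := Cfsg.Agent.Blocks.ExistsModular.exists_isPModular (Fact.out : p.Prime)
  set B := blockOf M (χ : G → ℂ) with hBdef
  have hB : IsPBlock M B := ⟨χ, rfl⟩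
  have hB1 : B = {χ} := (Cfsg.Agent.S0914.result p M hM χ).1 hχ
  obtain ⟨g, hg⟩ := Cfsg.Agent.S0906.result p M hM B hB
  obtain ⟨T0⟩ : Nonempty (Sylow p (Subgroup.centralizer ({g} : Set G))) := inferInstance
  set D : Subgroup G := (T0 : Subgroup (Subgroup.centralizer ({g} : Set G))).map
    (Subgroup.centralizer ({g} : Set G)).subtype with hD
  have hDD : IsDefectGroup p M B D := ⟨g, hg, T0, rfl⟩
  have hcard := Cfsg.Agent.S0908.result p M hM B hB D hDD
  have hdef : blockDefect p B = 0 := by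
    unfold blockDefect
    rw [hB1, Set.image_singleton, csInf_singleton]
    have hn0 : Nat.card G ≠ 0 := Nat.card_pos.ne'
    have hd0 : charDegree (χ : G → ℂ) ≠ 0 := fun h => by
      rw [h, zero_dvd_iff] at hdvd
      exact hn0 hdvd
    obtain ⟨k, hk⟩ := hdvd
    rw [hk, Nat.mul_div_cancel_left _ (Nat.pos_of_ne_zero hd0)] at hχ
    have hk0 : k ≠ 0 := by
      rintro rfl
      rw [mul_zero] at hk
      exact hn0 hk
    rw [hk, Nat.factorization_mul hd0 hk0, Finsupp.add_apply, Nat.factorization_eq_zero_of_not_dvd hχ]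
    omega
  rw [hdef, pow_zero] at hcard
  have hDbot : D = ⊥ := Subgroup.card_eq_one.1 hcard
  obtain ⟨x, -, -, hx⟩ := Cfsg.Agent.S0956.result p M hM B hB D hDD P (by rw [hDbot]; exact bot_le)
  exact ⟨x, by rw [hx, hDbot]⟩

/-- a pair of Sylow subgroups meeting trivially gives `MeetIn` -/
theorem meetIn_of_sylow {G : Type*} [Group G] [Finite G] {p : ℕ} [Fact p.Prime]
    (h : ∀ P : Sylow p G, ∃ x : G, (P : Subgroup G) ⊓ (P : Subgroup G).map (MulAut.conj x).toMonoidHom = ⊥) :
    MeetIn p G := by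
  intro R hR
  obtain ⟨P, hP⟩ := hR.exists_le_sylow
  obtain ⟨x, hx⟩ := h P
  refine ⟨x, fun y hy hxy => ?_⟩
  have h1 : x * y * x⁻¹ ∈ (P : Subgroup G) ⊓ (P : Subgroup G).map (MulAut.conj x).toMonoidHom :=
    ⟨hP hxy, y, hP hy, rfl⟩
  rw [hx, Subgroup.mem_bot] at h1
  have h2 : x * y = x * 1 := by rw [mul_one]; exact mul_inv_eq_one.1 h1
  exact mul_left_cancel h2

/-- **`p`-defect zero** -/
theorem meetIn_of_defect_zero {G : Type*} [Group G] [Finite G] {p : ℕ} [Fact p.Prime] (χ : IrrCharacter G)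
    (hχ : ¬ p ∣ Nat.card G / charDegree (χ : G → ℂ)) (hdvd : charDegree (χ : G → ℂ) ∣ Nat.card G) : MeetIn p G :=
  meetIn_of_sylow fun P => exists_inf_of_defect_zero p χ hχ hdvd P

/-- **Steinberg character**: degree the order of a Sylow `p`-subgroup -/
theorem meetIn_of_degree {G : Type*} [Group G] [Finite G] {p : ℕ} [Fact p.Prime] (χ : G → ℂ)
    (hirr : IsIrrCharacter G χ) (P : Sylow p G) (h : χ 1 = Nat.card P) : MeetIn p G := by
  have hd : charDegree χ = Nat.card P := by
    unfold charDegree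
    rw [h]
    simp
  refine meetIn_of_defect_zero (⟨χ, hirr⟩ : IrrCharacter G) ?_ ?_
  · show ¬ p ∣ Nat.card G / charDegree χ
    rw [hd]
    have h1 := (P : Subgroup G).card_mul_index
    rw [← h1, Nat.mul_div_cancel_left _ Nat.card_pos]
    exact P.not_dvd_index
  · show charDegree χ ∣ Nat.card G
    rw [hd]
    exact Subgroup.card_subgroup_dvd_card _

end Cfsg.Agent.H903.MeetDZ
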