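/-
helper903: S5760, Chevalley groups in characteristic `p`: `MeetIn p`.
-/
import Mathlib
import Cfsg.Agent.H903.MeetDZ
import Cfsg.Agent.H903.SylIn
import Cfsg.Agent.H185.MeetChev
import Cfsg.Agent.H185.MeetAll

set_option autoImplicit false

namespace Cfsg.Agent.H903.MeetInChev

open scoped Pointwise
open Cfsg Cfsg.Lie Cfsg.Agent.ChevalleyStructure Cfsg.Agent.ChevalleyStructure.Elts
  Cfsg.Agent.ChevalleyStructure.BNChev Cfsg.Agent.Schreier.ChevLocal
  Cfsg.Agent.S1042 Cfsg.Agent.H70.AutFix Cfsg.Agent.H70.ChevTab Cfsg.Agent.H70.ChevFix Cfsg.Agent.H70.ChevField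
open Cfsg.Agent.H903.SylMeet Cfsg.Agent.H68.MeetB

/-- one pair is enough -/
theorem meetIn_of_one {G : Type*} [Group G] [Finite G] {p : ℕ} [Fact p.Prime] (P : Sylow p G) (x : G)
    (h : ∀ u ∈ P, x * u * x⁻¹ ∈ P → u = 1) : MeetIn p G := by
  intro R hR
  obtain ⟨Q, hQ⟩ := hR.exists_le_sylow
  obtain ⟨g, hg⟩ := MulAction.exists_smul_eq G Q P
  have key : ∀ y ∈ R, g * y * g⁻¹ ∈ P := by
    intro y hy
    have h1 : MulAut.conj g • y ∈ MulAut.conj g • (Q : Subgroup G) :=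
      Subgroup.smul_mem_pointwise_smul y (MulAut.conj g) _ (hQ hy)
    have h2 : (P : Subgroup G) = MulAut.conj g • (Q : Subgroup G) := by
      rw [← hg]
      rfl
    show g * y * g⁻¹ ∈ (P : Subgroup G)
    rw [h2]
    exact h1
  refine ⟨g⁻¹ * x * g, fun y hy hxy => ?_⟩
  have h1 := h (g * y * g⁻¹) (key y hy) (by
    have := key _ hxy
    have e : g * (g⁻¹ * x * g * y * (g⁻¹ * x * g)⁻¹) * g⁻¹ = x * (g * y * g⁻¹) * x⁻¹ := by group
    rwa [e] at this)
  have h2 : y = g⁻¹ * (g * y * g⁻¹) * g := by group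
  rw [h2, h1]
  group

variable {D : ChevalleyDatum} (hD : InList D) {F : Type*} [Field F]

include hD in
/-- **Chevalley groups in characteristic `p`.** -/
theorem meetIn_chev [Fintype F] {p : ℕ} [Fact p.Prime] [CharP F p] : MeetIn p ↥(D.group F) := by
  have hfinG : Finite ↥(D.group F) := inferInstance
  obtain ⟨n, a, L⟩ := exists_longest hD F
  set nE : ↥(D.group F) := ⟨n, monomial_le_group hD F L.mem⟩ with hnE
  obtain ⟨S, hS⟩ := Cfsg.Agent.S2326.result (F := F) p D hD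
  have hnV : ∀ u ∈ UU D F, ((nE * u * nE⁻¹ : ↥(D.group F)) : GL D.Idx F) ∈ D.negUnipotent F := by
    have h1 : D.posUnipotent F ≤ (D.negUnipotent F).comap (MulAut.conj n).toMonoidHom := by
      rw [posUnipotent_le_iff hD]
      intro r hr t
      obtain ⟨η, -, h⟩ := L.conj r hr.1
      show n * xG hD r t * n⁻¹ ∈ D.negUnipotent F
      rw [h]
      exact xG_mem_negUnipotent hD (L.pos r hr) _
    intro u hu
    exact h1 hu
  have hone : ∀ u ∈ UU D F, ((nE * u * nE⁻¹ : ↥(D.group F)) : GL D.Idx F) ∈ D.borelSubgroup F → u = 1 := by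
    intro u hu h
    have h1 : nE * u * nE⁻¹ = 1 := Subtype.ext (one_of_mem_borel_of_mem_neg h (hnV u hu) hD)
    have h2 : nE * u * nE⁻¹ = nE * 1 * nE⁻¹ := by rw [h1]; group
    exact mul_left_cancel (mul_right_cancel h2)
  have hmem : ∀ u : ↥(D.group F), u ∈ S ↔ u ∈ UU D F := by
    intro u
    show u ∈ (S : Subgroup ↥(D.group F)) ↔ _
    rw [hS]
  refine meetIn_of_one S nE fun u hu h => ?_
  refine hone u ((hmem u).1 hu) (Subgroup.mem_sup_left ?_)
  exact (hmem _).1 h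

end Cfsg.Agent.H903.MeetInChev
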