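/-
helper903: S5760, classical groups in characteristic `p`: `MeetIn p` from the Steinberg character.
-/
import Mathlib
import Cfsg.Agent.H903.MeetDZ
import Cfsg.Agent.S2544
import Cfsg.Agent.S2545
import Cfsg.Agent.S2546
import Cfsg.Agent.S2547
import Cfsg.Agent.S2548
import Cfsg.Agent.S2549
import Cfsg.Agent.S2311
import Cfsg.Agent.S2327
import Cfsg.Agent.S2326

set_option autoImplicit false

namespace Cfsg.Agent.H903.MeetStein

open Cfsg Cfsg.Lie Cfsg.Agent.H903.SylMeet Cfsg.Agent.H68.MeetB Cfsg.Agent.H903.MeetDZ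

theorem of_stein {G : Type*} [Group G] [Finite G] {p : ℕ} [Fact p.Prime]
    (h : ∃ χ : G → ℂ, IsIrrCharacter G χ ∧ ∀ P : Sylow p G, χ 1 = Nat.card P ∧ ∀ x : G, x ∈ P → x ≠ 1 → χ x = 0) :
    MeetIn p G := by
  obtain ⟨χ, hirr, hχ⟩ := h
  obtain ⟨P⟩ : Nonempty (Sylow p G) := inferInstance
  exact meetIn_of_degree χ hirr P (hχ P).1

variable {F : Type*} [Field F] [Fintype F] {p : ℕ} [Fact p.Prime] [CharP F p]

theorem meetIn_psl {n : ℕ} (hn : 2 ≤ n) : MeetIn p (Matrix.ProjectiveSpecialLinearGroup (Fin n) F) :=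
  of_stein (Cfsg.Agent.S2544.result p n hn)

theorem meetIn_psp {m : ℕ} (hm : 1 ≤ m) : MeetIn p (PSp m F) :=
  of_stein (Cfsg.Agent.S2545.result p m hm)

theorem meetIn_psu {n q : ℕ} (hn : 2 ≤ n) (hF : Fintype.card F = q ^ 2) : MeetIn p (PSU n F q) :=
  of_stein (Cfsg.Agent.S2546.result p n q hn hF)

theorem meetIn_odd {m : ℕ} (hodd : Odd (Fintype.card F)) (hm : 1 ≤ m) : MeetIn p (POmega F (quadFormOdd m F)) :=
  of_stein (Cfsg.Agent.S2547.result p hodd m hm)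

theorem meetIn_plus {m : ℕ} (hm : 1 ≤ m) : MeetIn p (POmega F (quadFormPlus m F)) :=
  of_stein (Cfsg.Agent.S2548.result p m hm)

theorem meetIn_minus {m : ℕ} (a b : F) (hab : ∀ z₁ z₂ : F, z₁ ^ 2 + a * z₁ * z₂ + b * z₂ ^ 2 = 0 → z₁ = 0 ∧ z₂ = 0) :
    MeetIn p (POmega F (quadFormMinus m F a b)) :=
  of_stein (Cfsg.Agent.S2549.result p m a b hab)

end Cfsg.Agent.H903.MeetStein
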